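import Cfsg.Agent.H867.RC.Spor
import Cfsg.Agent.H582.Ly.Three
import Cfsg.Agent.H582.Ly.FvFour

/-!
# S3509, sporadic row `Ly`: the rules (helper182)

* `not_inv` : no cover `{t, u}` with an involution `t` (the normal closure of `u` in `C(t) = 2.A₁₁` contains `t`);
* `not_fv` : no cover with an element of order 5 of 5-cycle type (rule A with `O₅(C(f)) = 5^{1+4}`);
* `not_tdata` : no cover with an element `x₀`, `C(x₀) = 3.McL` (M-rule);
* `four_act` : a four-group acts on a group with nontrivial fixed points.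
-/

set_option autoImplicit false

namespace Cfsg.Agent.H182.RG.Ly

open Cfsg Subgroup MulAction Equiv Cfsg.Agent.H106.RC Cfsg.Agent.H867.RC Cfsg.Agent.SporRec.TwoAn
open Cfsg.Agent.TypeM.Two Cfsg.Agent.CpAutLy Cfsg.Agent.H582.Ly

/-- a nontrivial normal subgroup of a double cover of an alternating group contains the central involution -/
theorem z_mem_of_normal {α : Type*} [Fintype α] [DecidableEq α] {C : Type*} [Group C] (K : Cover α C)
    (hα : 5 ≤ Fintype.card α) (M : Subgroup C) (hn : ∀ g : C, ∀ m ∈ M, g * m * g⁻¹ ∈ M) {m₀ : C} (hm₀ : m₀ ∈ M)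
    (hm1 : m₀ ≠ 1) : K.z ∈ M := by
  by_contra hz
  have hsimple : IsSimpleGroup (alternatingGroup α) :=
    alternatingGroup.isSimpleGroup (by rw [Nat.card_eq_fintype_card]; exact hα)
  have hN : ((M.map K.π).subgroupOf (alternatingGroup α)).Normal := by
    constructor
    rintro n hn' ⟨g, hg⟩
    rw [mem_subgroupOf] at hn' ⊢
    obtain ⟨m, hm, hm'⟩ := hn'
    obtain ⟨c, rfl⟩ := K.exists_lift hg
    refine ⟨c * m * c⁻¹, hn c m hm, ?_⟩
    rw [map_mul, map_mul, map_inv, hm']
    rfl
  rcases hN.eq_bot_or_eq_top with hb | ht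
  · have h1 : (⟨K.π m₀, K.mem_alternating m₀⟩ : alternatingGroup α) ∈
        (M.map K.π).subgroupOf (alternatingGroup α) := by
      rw [mem_subgroupOf]
      exact ⟨m₀, hm₀, rfl⟩
    rw [hb, mem_bot] at h1
    rcases (K.ker m₀).1 (congrArg Subtype.val h1) with h2 | h2
    · exact hm1 h2
    · exact hz (h2 ▸ hm₀)
  · obtain ⟨e⟩ : Nonempty (Fin 4 ↪ α) :=
      Function.Embedding.nonempty_of_card_le (by simpa using (by omega : 4 ≤ Fintype.card α))
    have hne : ∀ i j : Fin 4, i ≠ j → e i ≠ e j := fun i j h h' => h (e.injective h')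
    have hmem := Cover.swap_mul_swap_mem (e 0) (e 1) (e 2) (e 3) (hne _ _ (by decide)) (hne _ _ (by decide))
    have h1 : (⟨_, hmem⟩ : alternatingGroup α) ∈ (M.map K.π).subgroupOf (alternatingGroup α) := by
      rw [ht]; exact mem_top _
    rw [mem_subgroupOf] at h1
    obtain ⟨m, hm, hm'⟩ := h1
    have h2 := K.dbl _ _ _ _ (hne _ _ (by decide)) (hne _ _ (by decide)) (hne _ _ (by decide))
      (hne _ _ (by decide)) (hne _ _ (by decide)) (hne _ _ (by decide)) m hm'
    exact hz (h2 ▸ M.mul_mem hm hm)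

/-- the normal closure of `u` in `C(x)` -/
def Wn {G : Type*} [Group G] (x u : G) : Subgroup G := closure {z | ∃ c : G, c * x = x * c ∧ z = c * u * c⁻¹}

theorem conj_mem_Wn {G : Type*} [Group G] {x u g w : G} (hg : g * x = x * g) (hw : w ∈ Wn x u) :
    g * w * g⁻¹ ∈ Wn x u := by
  unfold Wn at hw
  refine closure_induction (p := fun w _ => g * w * g⁻¹ ∈ Wn x u) ?_ ?_ ?_ ?_ hw
  · rintro _ ⟨c, hc, rfl⟩
    refine subset_closure ⟨g * c, ?_, by group⟩
    rw [mul_assoc, hc, ← mul_assoc, hg, mul_assoc]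
  · rw [mul_one, mul_inv_cancel]
    exact one_mem _
  · intro a b _ _ ha hb
    have e : g * (a * b) * g⁻¹ = (g * a * g⁻¹) * (g * b * g⁻¹) := by group
    rw [e]
    exact mul_mem ha hb
  · intro a _ ha
    have e : g * a⁻¹ * g⁻¹ = (g * a * g⁻¹)⁻¹ := by group
    rw [e]
    exact inv_mem ha

theorem self_mem_Wn {G : Type*} [Group G] (x u : G) : u ∈ Wn x u :=
  subset_closure ⟨1, by rw [one_mul, mul_one], by rw [one_mul, inv_one, mul_one]⟩

theorem Wn_le {G : Type*} [Group G] {x u : G} (hu : u * x = x * u) : Wn x u ≤ centralizer ({x} : Set G) := by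
  unfold Wn
  rw [closure_le]
  rintro _ ⟨c, hc, rfl⟩
  have h1 : Commute c x := hc
  have h2 : Commute u x := hu
  exact mem_centralizer_singleton_iff.2 ((h1.mul_left h2).mul_left h1.inv_left).eq

/-! ### involutions -/

/-- **no cover `{t, u}` with an involution** -/
theorem not_inv {G Ω : Type*} [Group G] [MulAction G Ω] [Nonempty Ω] {N : Subgroup G} (hE : Env G Ω N) (L : MT 11 G)
    {t u : G} (ht : orderOf t = 2) (hu1 : u ≠ 1) (hut : u * t = t * u) (hc : ∀ ω : Ω, t • ω = ω ∨ u • ω = ω) :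
    False := by
  obtain ⟨h1, h2⟩ := MT.sq_of_orderOf ht
  obtain ⟨L', rfl⟩ := L.exists_rebase h1 h2
  refine rulePair hE h2 hc ?_
  have hz : L'.K.z ∈ (Wn L'.t u).comap (centralizer ({L'.t} : Set G)).subtype := by
    refine z_mem_of_normal L'.K (by simp) _ ?_ (m₀ := ⟨u, mem_centralizer_singleton_iff.2 hut⟩) (self_mem_Wn _ _)
      fun h => hu1 (congrArg Subtype.val h)
    intro g m hm
    exact conj_mem_Wn (mem_centralizer_singleton_iff.1 g.2) hm
  have h3 : (L'.K.z : G) ∈ Wn L'.t u := hz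
  rw [L'.hz] at h3
  exact h3

/-! ### elements of order five -/

theorem eq_one_of_coprime {G : Type*} [Group G] {g : G} {a b : ℕ} (ha : g ^ a = 1) (hb : g ^ b = 1)
    (h : Nat.Coprime a b) : g = 1 := by
  have h1 := Nat.dvd_gcd (orderOf_dvd_of_pow_eq_one ha) (orderOf_dvd_of_pow_eq_one hb)
  rw [Nat.coprime_iff_gcd_eq_one.1 h, Nat.dvd_one, orderOf_eq_one_iff] at h1
  exact h1

/-- **no cover with an element of order 5 of 5-cycle type** -/
theorem not_fv {G Ω ι : Type*} [Group G] [Finite G] [Finite ι] [MulAction G Ω] [Nonempty Ω] {N : Subgroup G}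
    (hE : Env G Ω N) {x : ι → G} {r : ι → ℕ} (hx : PF x r) (hc : Cov Ω x) {i₀ : ι} {t : G} {K S : Subgroup G}
    (h : Fv t (x i₀) K S) : False := by
  have hr : r i₀ = 5 := by
    have h1 := orderOf_dvd_of_pow_eq_one (hx.pow i₀)
    rw [h.h.f5] at h1
    exact ((Nat.prime_dvd_prime_iff_eq Nat.prime_five (hx.prime i₀)).1 h1).symm
  refine ruleA' hE hx hc Nat.prime_five K h.isPGroup_K ?_ (z := x i₀) (hx.ne i₀) h.h.cent ?_ ?_ ?_
  · intro i
    refine mem_normalizer_fintype fun k hk => h.h.norm (x i) ?_ k hk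
    rw [hx.comm, mul_inv_cancel_right]
    exact mem_zpowers _
  · intro c hc hcc _ hc1
    have h1 := h.center c hc fun k hk => (hcc k hk).symm
    have h2 : zpowers c ≤ zpowers (x i₀) := zpowers_le.2 h1
    have h3 : orderOf c = 5 := by
      have h4 := orderOf_dvd_of_mem_zpowers h1
      rw [h.h.f5] at h4
      exact ((Nat.dvd_prime Nat.prime_five).1 h4).resolve_left fun h5 => hc1 (orderOf_eq_one_iff.1 h5)
    have h5 : zpowers c = zpowers (x i₀) :=
      eq_of_le_of_card_ge h2 (by rw [Nat.card_zpowers, Nat.card_zpowers, h3, h.h.f5])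
    rw [h5]
    exact mem_zpowers _
  · intro i hi
    by_contra hcon
    push Not at hcon
    have h1 := h.mem_of_comm (hx.comm i i₀) fun k hk => (hcon k hk).symm
    refine hx.ne i (eq_one_of_coprime (hx.pow i) (h.pow_five _ h1) ?_)
    exact (Nat.coprime_primes (hx.prime i) Nat.prime_five).2 hi
  · intro i hi
    have h1 : i = i₀ := hx.inj (by rw [hi, hr])
    rw [h1]
    exact mem_zpowers _

/-! ### `C(x₀) = 3.McL` -/

/-- **no cover with an element with centralizer `3.McL`** -/
theorem not_tdata (hM : ∀ (T : Type) [Group T] [Finite T], Spor.IsoMcL T → RC T) {G Ω ι : Type} [Group G] [Finite G]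
    [Finite ι] [MulAction G Ω] [Nonempty Ω] {N : Subgroup G} (hE : Env G Ω N) {x : ι → G} {r : ι → ℕ} (hx : PF x r)
    (hc : Cov Ω x) {i₀ : ι} (h : TData (x i₀)) : False := by
  have hr : r i₀ = 3 := by
    have h1 := orderOf_dvd_of_pow_eq_one (hx.pow i₀)
    rw [h.ord] at h1
    exact ((Nat.prime_dvd_prime_iff_eq Nat.prime_three (hx.prime i₀)).1 h1).symm
  apply hx.ne i₀
  refine hE.single fun ω => ?_
  obtain ⟨-, hs, hcard, -⟩ := Cfsg.Agent.TypeM.FactsMcL.facts h.mcl.quot
  have hperf : ⁅centralizer ({x i₀} : Set G), centralizer ({x i₀} : Set G)⁆ = centralizer ({x i₀} : Set G) := by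
    have h1 : commutator ↥(centralizer ({x i₀} : Set G)) = ⊤ := Comp.perfect_of_quasisimple h.mcl.quasi
    have h2 := map_subtype_commutator (centralizer ({x i₀} : Set G))
    rw [h1, ← MonoidHom.range_eq_map, range_subtype] at h2
    exact h2.symm
  have hnc : ¬ IsMulCommutative (↥(centralizer ({x i₀} : Set G)) ⧸ center ↥(centralizer ({x i₀} : Set G))) := by
    intro hcm
    have hp : IsSimpleGroup (↥(centralizer ({x i₀} : Set G)) ⧸ center ↥(centralizer ({x i₀} : Set G))) := hs
    have h1 : Nat.Prime (Nat.card (↥(centralizer ({x i₀} : Set G)) ⧸ center ↥(centralizer ({x i₀} : Set G)))) := by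
      let _ : CommGroup (↥(centralizer ({x i₀} : Set G)) ⧸ center ↥(centralizer ({x i₀} : Set G))) :=
        { (inferInstance : Group (↥(centralizer ({x i₀} : Set G)) ⧸ center ↥(centralizer ({x i₀} : Set G)))) with
          mul_comm := hcm.is_comm.comm }
      exact IsSimpleGroup.prime_card
    rw [hcard] at h1
    revert h1
    norm_num
  rcases mrule_RC hs hnc x r hx.prime hx.inj hx.pow hx.comm (centralizer ({x i₀} : Set G)) hperf
    (QuotientGroup.mk' (center ↥(centralizer ({x i₀} : Set G)))) (QuotientGroup.mk'_surjective _)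
    (by rw [QuotientGroup.ker_mk']) (fun i => le_normalizer (mem_centralizer_singleton_iff.2 (hx.comm i i₀)))
    (hM _ h.mcl.quot) ω (fun m _ => by
      obtain ⟨i, hi⟩ := hc (m • ω)
      exact ⟨i, hi⟩) with h1 | ⟨j, hj, hjω⟩
  · exact h1 (mem_centralizer_singleton_iff.2 rfl)
  · have h2 : (⟨x j, mem_centralizer_singleton_iff.2 (hx.comm j i₀)⟩ : ↥(centralizer ({x i₀} : Set G))) ∈
        center ↥(centralizer ({x i₀} : Set G)) :=
      mem_center_iff.2 fun m => Subtype.ext (hj m m.2).symm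
    have h3 : x j ^ 3 = 1 := by
      have h4 := pow_card_eq_one' (G := center ↥(centralizer ({x i₀} : Set G))) (x := ⟨_, h2⟩)
      rw [h.mcl.zcard] at h4
      exact congrArg (fun v => ((v : ↥(centralizer ({x i₀} : Set G))) : G)) (congrArg Subtype.val h4)
    have h5 : r j = 3 := by
      by_contra hne
      exact hx.ne j (eq_one_of_coprime (hx.pow j) h3 ((Nat.coprime_primes (hx.prime j) Nat.prime_three).2 hne))
    have h6 : j = i₀ := hx.inj (by rw [h5, hr])
    rw [← h6]
    exact hjω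

/-! ### a four-group acting on a group -/

section Four

variable {G : Type*} [Group G] [Finite G]

theorem inv_of_fpf {Y : Subgroup G} {a : G} (haa : a * a = 1) (ha : a ∈ normalizer (Y : Set G))
    (h : Y ⊓ centralizer {a} = ⊥) : ∀ y ∈ Y, a * y * a⁻¹ = y⁻¹ := by
  let φ : Y →* Y :=
    { toFun := fun y => ⟨a * y * a⁻¹, (mem_normalizer_iff.1 ha y).1 y.2⟩
      map_one' := Subtype.ext (by show a * 1 * a⁻¹ = 1; group)
      map_mul' := fun x y => Subtype.ext (by show a * (x * y) * a⁻¹ = (a * x * a⁻¹) * (a * y * a⁻¹); group) }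
  have h1 : MonoidHom.FixedPointFree φ := by
    rintro ⟨y, hy⟩ h2
    have h3 : a * y * a⁻¹ = y := congrArg Subtype.val h2
    have h4 : y ∈ Y ⊓ centralizer {a} := ⟨hy, mem_centralizer_singleton_iff.2 (by
      calc y * a = (a * y * a⁻¹) * a := by rw [h3]
        _ = a * y := by group)⟩
    rw [h, mem_bot] at h4
    exact Subtype.ext h4
  have h2 : Function.Involutive φ := by
    rintro ⟨y, hy⟩
    apply Subtype.ext
    show a * (a * y * a⁻¹) * a⁻¹ = y
    calc a * (a * y * a⁻¹) * a⁻¹ = (a * a) * y * (a * a)⁻¹ := by group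
      _ = y := by rw [haa]; group
  intro y hy
  exact congrArg Subtype.val (congrFun (h1.coe_eq_inv_of_involutive h2) ⟨y, hy⟩)

theorem four_act {Y : Subgroup G} (hY : Y ≠ ⊥) {a b : G} (haa : a * a = 1) (hbb : b * b = 1)
    (ha : a ∈ normalizer (Y : Set G)) (hb : b ∈ normalizer (Y : Set G)) :
    (Y ⊓ centralizer {a} : Subgroup G) ≠ ⊥ ∨ (Y ⊓ centralizer {b} : Subgroup G) ≠ ⊥ ∨
      (Y ⊓ centralizer {a * b} : Subgroup G) ≠ ⊥ := by
  by_contra hcon
  push Not at hcon
  obtain ⟨h1, h2, h3⟩ := hcon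
  have i1 := inv_of_fpf haa ha h1
  have i2 := inv_of_fpf hbb hb h2
  apply hY
  rw [eq_bot_iff, ← h3]
  intro y hy
  refine ⟨hy, mem_centralizer_singleton_iff.2 ?_⟩
  have h4 : a * b * y * (a * b)⁻¹ = y := by
    calc a * b * y * (a * b)⁻¹ = a * (b * y * b⁻¹) * a⁻¹ := by group
      _ = a * y⁻¹ * a⁻¹ := by rw [i2 y hy]
      _ = (a * y * a⁻¹)⁻¹ := by group
      _ = y := by rw [i1 y hy, inv_inv]
  calc y * (a * b) = (a * b * y * (a * b)⁻¹) * (a * b) := by rw [h4]
    _ = a * b * y := by group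

omit [Finite G] in
/-- the group generated by two commuting involutions -/
theorem isPGroup_four {a b : G} (haa : a * a = 1) (hbb : b * b = 1) (hab : a * b = b * a) :
    IsPGroup 2 (closure ({a, b} : Set G)) := by
  have h1 : ∀ y ∈ closure ({a, b} : Set G), y = 1 ∨ y = a ∨ y = b ∨ y = a * b := by
    intro y hy
    have hba : b * a = a * b := hab.symm
    refine closure_induction (p := fun y _ => y = 1 ∨ y = a ∨ y = b ∨ y = a * b) ?_ (Or.inl rfl) ?_ ?_ hy
    · rintro y (rfl | rfl)
      · exact Or.inr (Or.inl rfl)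
      · exact Or.inr (Or.inr (Or.inl rfl))
    · have e1 : a * (a * b) = b := by rw [← mul_assoc, haa, one_mul]
      have e2 : b * (a * b) = a := by rw [hab, ← mul_assoc, hbb, one_mul]
      have e3 : a * b * a = b := by rw [mul_assoc, hba, e1]
      have e4 : a * b * b = a := by rw [mul_assoc, hbb, mul_one]
      have e5 : a * b * (a * b) = 1 := by rw [← mul_assoc, e3, hbb]
      rintro u v - - (rfl | rfl | rfl | rfl) (rfl | rfl | rfl | rfl) <;>
        simp only [one_mul, mul_one, haa, hbb, hba, e1, e2, e3, e4, e5, true_or, or_true]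
    · have e1 : a⁻¹ = a := inv_eq_of_mul_eq_one_left haa
      have e2 : b⁻¹ = b := inv_eq_of_mul_eq_one_left hbb
      rintro u - (rfl | rfl | rfl | rfl) <;> simp only [inv_one, mul_inv_rev, e1, e2, hba, true_or, or_true]
  rintro ⟨y, hy⟩
  refine ⟨1, Subtype.ext ?_⟩
  show y ^ 2 ^ 1 = 1
  rw [pow_one, pow_two]
  rcases h1 y hy with rfl | rfl | rfl | rfl
  · rw [one_mul]
  · exact haa
  · exact hbb
  · calc a * b * (a * b) = a * (b * a) * b := by group
      _ = a * (a * b) * b := by rw [hab]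
      _ = (a * a) * (b * b) := by group
      _ = 1 := by rw [haa, hbb, one_mul]

/-- a four-group acts on a normal subgroup `W` of odd order: an element of order `q` of `W` commutes with an involution of
a four-group -/
theorem exists_comm {q : ℕ} (hq : q.Prime) (W : Subgroup G) [W.Normal] (hW : Odd (Nat.card W)) (hqW : q ∣ Nat.card W)
    {a b : G} (haa : a * a = 1) (hbb : b * b = 1) (hab : a * b = b * a) (ha1 : a ≠ 1) (hb1 : b ≠ 1)
    (hab1 : a * b ≠ 1) : ∃ v w : G, v * v = 1 ∧ v ≠ 1 ∧ w ∈ W ∧ orderOf w = q ∧ w * v = v * w := by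
  have hf : Fact q.Prime := ⟨hq⟩
  let P : Sylow q W := default
  have hP1 : (P : Subgroup W) ≠ ⊥ := by
    intro h
    have h1 := P.card_eq_multiplicity
    rw [h, card_bot] at h1
    have h2 : (Nat.card W).factorization q ≠ 0 :=
      (Nat.Prime.factorization_pos_of_dvd hq Nat.card_pos.ne' hqW).ne'
    have h3 := Nat.one_lt_pow h2 hq.one_lt
    omega
  set Y : Subgroup G := (P : Subgroup W).map W.subtype with hY
  have hYW : Y ≤ W := map_subtype_le _
  have hfr : normalizer (Y : Set G) ⊔ W = ⊤ := by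
    have := P.normalizer_sup_eq_top
    exact this
  have hidx : ¬ 2 ∣ (normalizer (Y : Set G)).index := by
    have h1 := Frat.card_sup_mul (K := W) (H := normalizer (Y : Set G)) (by
      rw [normalizer_eq_top_iff.2 (inferInstance : W.Normal)]; exact le_top)
    rw [sup_comm, hfr, card_top, ← (normalizer (Y : Set G)).card_mul_index, mul_comm (Nat.card W), mul_assoc] at h1
    have h2 := Nat.eq_of_mul_eq_mul_left Nat.card_pos h1
    intro h3
    exact (Nat.not_even_iff_odd.2 hW) (even_iff_two_dvd.2 (h2 ▸ h3.mul_right _))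
  obtain ⟨g, hg⟩ := exists_conj_le Nat.prime_two (isPGroup_four haa hbb hab) hidx
  have hYp : IsPGroup q Y := P.isPGroup'.map _
  have hYb : Y ≠ ⊥ := by
    intro h
    apply hP1
    rw [hY] at h
    exact (Subgroup.map_eq_bot_iff_of_injective _ (subtype_injective _)).1 h
  have hm : ∀ x y : G, (g * x * g⁻¹) * (g * y * g⁻¹) = g * (x * y) * g⁻¹ := fun x y => by group
  have hne : ∀ x : G, x ≠ 1 → g * x * g⁻¹ ≠ 1 := fun x hx h => hx (by
    have h1 : x = g⁻¹ * (g * x * g⁻¹) * g := by group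
    rw [h1, h]
    group)
  have hsq : ∀ x : G, x * x = 1 → (g * x * g⁻¹) * (g * x * g⁻¹) = 1 := fun x hx => by
    rw [hm, hx]
    group
  have habab : (a * b) * (a * b) = 1 := by
    calc a * b * (a * b) = a * (b * a) * b := by group
      _ = a * (a * b) * b := by rw [hab]
      _ = (a * a) * (b * b) := by group
      _ = 1 := by rw [haa, hbb, one_mul]
  have fin : ∀ v : G, v * v = 1 → v ≠ 1 → (Y ⊓ centralizer {v} : Subgroup G) ≠ ⊥ →
      ∃ v w : G, v * v = 1 ∧ v ≠ 1 ∧ w ∈ W ∧ orderOf w = q ∧ w * v = v * w := by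
    intro v hv hv1 hb
    obtain ⟨n, hn⟩ := (hYp.to_le (inf_le_left : Y ⊓ centralizer {v} ≤ Y)).exists_card_eq
    have hn0 : n ≠ 0 := by
      rintro rfl
      rw [pow_zero, card_eq_one] at hn
      exact hb hn
    obtain ⟨⟨w, hw⟩, hwo⟩ := exists_prime_orderOf_dvd_card' (G := (Y ⊓ centralizer {v} : Subgroup G)) q
      (by rw [hn]; exact dvd_pow_self q hn0)
    rw [← orderOf_coe] at hwo
    exact ⟨v, w, hv, hv1, hYW hw.1, hwo, mem_centralizer_singleton_iff.1 hw.2⟩
  rcases four_act hYb (hsq a haa) (hsq b hbb) (hg a (subset_closure (by simp))) (hg b (subset_closure (by simp)))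
    with h | h | h
  · exact fin _ (hsq a haa) (hne a ha1) h
  · exact fin _ (hsq b hbb) (hne b hb1) h
  · rw [hm] at h
    exact fin _ (hsq _ habab) (hne _ hab1) h

end Four

end Cfsg.Agent.H182.RG.Ly
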